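/-
The natural module of `SL₂(4)`: extensions of `A₅` by an elementary abelian `2`-group on which the
elements of odd order act without fixed points.
-/
import Cfsg.Agent.H12.CITDefs
import Cfsg.Agent.H24.Pres
import Cfsg.Agent.H25.Sect
import Cfsg.Agent.H29.F4

set_option autoImplicit false
set_option linter.style.haveILetI false

namespace Cfsg.Agent.H52

open Subgroup Cfsg.Agent.H69 Cfsg.Agent.H12

/-- The relations satisfied by generators of `SL₂(4)` on the natural module. -/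
structure NatRel {R : Type*} [Ring R] (α β : R) : Prop where
  two : (1 : R) + 1 = 0
  ha : α * α = 1
  hb : β * β + β + 1 = 0
  hc : (α * β) ^ 4 + (α * β) ^ 3 + (α * β) ^ 2 + α * β + 1 = 0

namespace NatRel

variable {R : Type*} [Ring R] {α β : R}

/-- The trace of `α β`. -/
def tau (α β : R) : R := α * β + β * α + α

theorem comm_a (h : NatRel α β) : α * tau α β = tau α β * α := by
  unfold tau
  calc α * (α * β + β * α + α) = (α * α) * β + α * β * α + α * α := by noncomm_ring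
    _ = α * β * α + β * (α * α) + α * α := by rw [h.ha]; noncomm_ring
    _ = _ := by noncomm_ring

theorem bb (h : NatRel α β) : β * β = -β - 1 := by
  rw [eq_sub_iff_add_eq, eq_neg_iff_add_eq_zero, ← h.hb]; abel

theorem comm_b (h : NatRel α β) : β * tau α β = tau α β * β := by
  unfold tau
  calc β * (α * β + β * α + α) = β * α * β + (β * β) * α + β * α := by noncomm_ring
    _ = α * (β * β) + β * α * β + α * β := by rw [h.bb]; noncomm_ring
    _ = _ := by noncomm_ring

theorem tau_sq (h : NatRel α β) : tau α β * tau α β + tau α β + 1 = 0 := by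
  set γ := α * β with hγ
  set δ := β * α + α with hδ
  have h1 : γ * δ = -1 := by
    calc γ * δ = α * (β * β) * α + α * β * α := by rw [hγ, hδ]; noncomm_ring
      _ = -(α * α) := by rw [h.bb]; noncomm_ring
      _ = -1 := by rw [h.ha]
  have h2 : δ * γ = -1 := by
    calc δ * γ = β * (α * α) * β + (α * α) * β := by rw [hγ, hδ]; noncomm_ring
      _ = β * β + β := by rw [h.ha]; noncomm_ring
      _ = -1 := by rw [h.bb]; noncomm_ring
  have h3 : δ * δ * (γ * γ) = 1 := by
    calc δ * δ * (γ * γ) = δ * (δ * γ) * γ := by noncomm_ring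
      _ = 1 := by rw [h2, mul_neg_one, neg_mul, h2, neg_neg]
  have h4 : γ * γ + γ + 1 - δ + δ * δ = 0 := by
    calc γ * γ + γ + 1 - δ + δ * δ = δ * δ * (γ * γ) * (γ * γ) + δ * δ * (γ * γ) * γ +
          δ * δ * (γ * γ) + δ * (δ * γ) + δ * δ := by rw [h3, h2]; noncomm_ring
      _ = δ * δ * (γ ^ 4 + γ ^ 3 + γ ^ 2 + γ + 1) := by noncomm_ring
      _ = 0 := by rw [hγ, h.hc, mul_zero]
  have h5 : tau α β = γ + δ := by rw [tau, hγ, hδ, add_assoc]
  rw [h5]
  calc (γ + δ) * (γ + δ) + (γ + δ) + 1 = (γ * γ + γ + 1 - δ + δ * δ) + γ * δ + δ * γ +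
        (1 + 1) * δ := by noncomm_ring
    _ = -(1 + 1) + (1 + 1) * δ := by rw [h4, h1, h2]; abel
    _ = 0 := by rw [h.two, neg_zero, zero_mul, add_zero]

variable {M : Type*} [AddCommGroup M] {a b : AddMonoid.End M}

theorem add_self (h : NatRel a b) (x : M) : x + x = 0 := congrArg (fun f : AddMonoid.End M => f x) h.two

theorem a_b (v : M) (hv : a v = v) : a (b v) = tau a b v - b v - v := by
  have : tau a b v = a (b v) + b (a v) + a v := rfl
  rw [this, hv]; abel

theorem a_tau (h : NatRel a b) (x : M) : a (tau a b x) = tau a b (a x) :=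
  congrArg (fun f : AddMonoid.End M => f x) h.comm_a

theorem b_tau (h : NatRel a b) (x : M) : b (tau a b x) = tau a b (b x) :=
  congrArg (fun f : AddMonoid.End M => f x) h.comm_b

theorem tau_tau (h : NatRel a b) (x : M) : tau a b (tau a b x) = -tau a b x - x := by
  have : tau a b (tau a b x) + tau a b x + x = 0 :=
    congrArg (fun f : AddMonoid.End M => f x) h.tau_sq
  rw [eq_sub_iff_add_eq, eq_neg_iff_add_eq_zero, ← this]; abel

theorem b_b (h : NatRel a b) (x : M) : b (b x) = -b x - x :=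
  congrArg (fun f : AddMonoid.End M => f x) h.bb

theorem exists_add_eq (h : NatRel a b) {z : M} (hz : a z = z) : ∃ w, w + a w = z := by
  refine ⟨b (tau a b z), ?_⟩
  rw [a_b (a := a) (b := b) (tau a b z) (by rw [h.a_tau, hz]), h.tau_tau]
  have h1 := h.add_self (tau a b z)
  have h2 := h.add_self z
  calc _ = z - (tau a b z + tau a b z) - (z + z) := by abel
    _ = z := by rw [h1, h2]; abel

theorem exists_inv (h : NatRel a b) {v : M} (hv : a v = v) : ∃ W : AddSubgroup M, v ∈ W ∧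
    Finite W ∧ Nat.card W ≤ 16 ∧ ∀ w ∈ W, a w ∈ W ∧ b w ∈ W := by
  letI : Module (ZMod 2) M := AddCommGroup.zmodModule (n := 2) fun x => by
    rw [two_nsmul, h.add_self]
  set f : Fin 4 → M := ![v, tau a b v, b v, tau a b (b v)] with hf
  set W := Submodule.span (ZMod 2) (Set.range f) with hW
  have m : ∀ i, f i ∈ W := fun i => Submodule.subset_span ⟨i, rfl⟩
  have m0 : v ∈ W := m 0
  have m1 : tau a b v ∈ W := m 1
  have m2 : b v ∈ W := m 2
  have m3 : tau a b (b v) ∈ W := m 3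
  have hs : Function.Surjective fun c : Fin 4 → ZMod 2 =>
      (⟨Fintype.linearCombination (ZMod 2) f c, by
        rw [hW, ← Fintype.range_linearCombination]; exact ⟨c, rfl⟩⟩ : W.toAddSubgroup) := by
    rintro ⟨x, hx⟩
    have hx' : x ∈ W := hx
    rw [hW, ← Fintype.range_linearCombination] at hx'
    obtain ⟨c, rfl⟩ := hx'
    exact ⟨c, rfl⟩
  refine ⟨W.toAddSubgroup, m0, Finite.of_surjective _ hs,
    (Nat.card_le_card_of_surjective _ hs).trans (by simp), fun w hw => ?_⟩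
  have hw' : w ∈ W := hw
  change a w ∈ W ∧ b w ∈ W
  induction hw' using Submodule.span_induction with
  | mem x hx =>
    obtain ⟨i, rfl⟩ := hx
    fin_cases i
    · exact ⟨hv.symm ▸ m0, m2⟩
    · change a (tau a b v) ∈ W ∧ b (tau a b v) ∈ W
      rw [h.a_tau, hv, h.b_tau]
      exact ⟨m1, m3⟩
    · change a (b v) ∈ W ∧ b (b v) ∈ W
      rw [a_b v hv, h.b_b]
      exact ⟨sub_mem (sub_mem m1 m2) m0, sub_mem (neg_mem m2) m0⟩
    · change a (tau a b (b v)) ∈ W ∧ b (tau a b (b v)) ∈ W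
      rw [h.a_tau, h.b_tau, a_b v hv, h.b_b, map_sub, map_sub, map_sub, map_neg, h.tau_tau]
      exact ⟨sub_mem (sub_mem (sub_mem (neg_mem m1) m0) m3) m1, sub_mem (neg_mem m3) m1⟩
  | zero => simp
  | add x y hx hy ihx ihy =>
    rw [map_add, map_add]
    exact ⟨add_mem (ihx hx).1 (ihy hy).1, add_mem (ihx hx).2 (ihy hy).2⟩
  | smul c x hx ih =>
    rw [ZMod.map_smul, ZMod.map_smul]
    exact ⟨W.smul_mem c (ih hx).1, W.smul_mem c (ih hx).2⟩

end NatRel

/-- Elements `a`, `b` acting on the elementary abelian group `V` like generators of `SL₂(4)` on a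
sum of natural modules. -/
structure NatAct {X : Type*} [Group X] (V : Subgroup X) (a b : X) : Prop where
  ea : EA V
  na : a ∈ normalizer (V : Set X)
  nb : b ∈ normalizer (V : Set X)
  aa : a * a ∈ V
  three : ∀ w ∈ V, (w * b) ^ 3 = 1
  five : ∀ w ∈ V, (w * (a * b)) ^ 5 = 1

namespace NatAct

variable {X : Type*} [Group X] {V : Subgroup X} {a b : X}

theorem prod {Y : Type*} [Group Y] {V' : Subgroup Y} {a' b' : Y} (h : NatAct V a b)
    (h' : NatAct V' a' b') : NatAct (V.prod V') (a, a') (b, b') where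
  ea := fun _ hx => Prod.ext (h.ea _ hx.1) (h'.ea _ hx.2)
  na := mem_normalizer_iff.2 fun x => and_congr (mem_normalizer_iff.1 h.na x.1)
    (mem_normalizer_iff.1 h'.na x.2)
  nb := mem_normalizer_iff.2 fun x => and_congr (mem_normalizer_iff.1 h.nb x.1)
    (mem_normalizer_iff.1 h'.nb x.2)
  aa := ⟨h.aa, h'.aa⟩
  three := fun _ hx => Prod.ext (h.three _ hx.1) (h'.three _ hx.2)
  five := fun _ hx => Prod.ext (h.five _ hx.1) (h'.five _ hx.2)

theorem main (h : NatAct V a b) :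
    (∀ z ∈ V, a * z = z * a → ∃ w ∈ V, w * (a * w * a⁻¹) = z) ∧
    ∀ v ∈ V, a * v = v * a → ∃ W : Subgroup X, W ≤ V ∧ v ∈ W ∧ Finite W ∧ Nat.card W ≤ 16 ∧
      ∀ w ∈ W, a * w * a⁻¹ ∈ W ∧ b * w * b⁻¹ ∈ W := by
  letI : CommGroup V :=
    { (inferInstance : Group V) with mul_comm := fun x y => Subtype.ext (h.ea.comm x.2 y.2) }
  let φ : normalizer (V : Set X) → AddMonoid.End (Additive V) := fun g =>
    MonoidHom.toAdditive (V.normalizerMonoidHom g).toMonoidHom
  have hφ : ∀ (g : normalizer (V : Set X)) (x : Additive V),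
      ((φ g x).toMul : X) = g * (x.toMul : X) * (g : X)⁻¹ := fun _ _ => rfl
  have ext : ∀ {x y : Additive V}, (x.toMul : X) = (y.toMul : X) → x = y := fun e =>
    Additive.toMul.injective (Subtype.ext e)
  set α := φ ⟨a, h.na⟩ with hα
  set β := φ ⟨b, h.nb⟩ with hβ
  have hαx : ∀ x, ((α x).toMul : X) = a * (x.toMul : X) * a⁻¹ := fun _ => rfl
  have hβx : ∀ x, ((β x).toMul : X) = b * (x.toMul : X) * b⁻¹ := fun _ => rfl
  have h3 : b ^ 3 = 1 := by simpa using h.three 1 (one_mem _)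
  have h5 : (a * b) ^ 5 = 1 := by simpa using h.five 1 (one_mem _)
  have hR : NatRel α β := by
    refine ⟨AddMonoidHom.ext fun x => ext (h.ea _ x.toMul.2), AddMonoidHom.ext fun x => ext ?_,
      AddMonoidHom.ext fun x => ?_, AddMonoidHom.ext fun x => ?_⟩
    · change ((α (α x)).toMul : X) = x.toMul
      rw [hαx, hαx]
      calc a * (a * (x.toMul : X) * a⁻¹) * a⁻¹ = (a * a) * (x.toMul : X) * (a * a)⁻¹ := by group
        _ = _ := by rw [h.ea.comm h.aa x.toMul.2]; group
    · change β (β x) + β x + x = 0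
      rw [show β (β x) + β x + x = x + β x + β (β x) by abel]
      apply ext
      change (x.toMul : X) * (β x).toMul * (β (β x)).toMul = 1
      simp only [hβx]
      calc _ = ((x.toMul : X) * b) ^ 3 * (b ^ 3)⁻¹ := by simp only [pow_succ]; group
        _ = 1 := by rw [h.three _ x.toMul.2, h3]; group
    · have hγ : ∀ x, (((α * β) x).toMul : X) = (a * b) * (x.toMul : X) * (a * b)⁻¹ := fun x => by
        change ((α (β x)).toMul : X) = _
        rw [hαx, hβx]; group
      set γ := α * β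
      change γ (γ (γ (γ x))) + γ (γ (γ x)) + γ (γ x) + γ x + x = 0
      rw [show γ (γ (γ (γ x))) + γ (γ (γ x)) + γ (γ x) + γ x + x =
        x + γ x + γ (γ x) + γ (γ (γ x)) + γ (γ (γ (γ x))) by abel]
      apply ext
      change (x.toMul : X) * (γ x).toMul * (γ (γ x)).toMul * (γ (γ (γ x))).toMul *
        (γ (γ (γ (γ x)))).toMul = 1
      simp only [hγ]
      have h6 := h.five _ x.toMul.2
      generalize a * b = c at h5 h6 ⊢
      calc _ = ((x.toMul : X) * c) ^ 5 * (c ^ 5)⁻¹ := by simp only [pow_succ]; group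
        _ = 1 := by rw [h6, h5]; group
  refine ⟨fun z hz hc => ?_, fun v hv hc => ?_⟩
  · obtain ⟨w, hw⟩ := hR.exists_add_eq (z := Additive.ofMul ⟨z, hz⟩) (ext (by
      rw [hαx]; change a * z * a⁻¹ = z; rw [hc]; group))
    exact ⟨w.toMul, w.toMul.2, congrArg (fun y : Additive V => (y.toMul : X)) hw⟩
  · obtain ⟨W, h1, h2, h3, h4⟩ := hR.exists_inv (v := Additive.ofMul ⟨v, hv⟩) (ext (by
      rw [hαx]; change a * v * a⁻¹ = v; rw [hc]; group))
    have e := (AddSubgroup.toSubgroup' W).equivMapOfInjective V.subtype V.subtype_injective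
    refine ⟨(AddSubgroup.toSubgroup' W).map V.subtype, map_subtype_le _, ⟨⟨v, hv⟩, h1, rfl⟩,
      Finite.of_equiv W e.toEquiv, (Nat.card_congr e.toEquiv).ge.trans h3, ?_⟩
    rintro _ ⟨w, hw, rfl⟩
    exact ⟨⟨_, (h4 (Additive.ofMul w) hw).1, rfl⟩, ⟨_, (h4 (Additive.ofMul w) hw).2, rfl⟩⟩

theorem card_le (h : NatAct V a b) (ha : a * a = 1) {v : X} (hv : v ∈ V) (hc : a * v = v * a) :
    Finite (closure ({a, b, v} : Set X)) ∧ Nat.card (closure ({a, b, v} : Set X)) ≤ 960 := by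
  obtain ⟨W, -, hvW, hWf, hW, hn⟩ := h.main.2 v hv hc
  have h3 : b ^ 3 = 1 := by simpa using h.three 1 (one_mem _)
  have h5 : (a * b) ^ 5 = 1 := by simpa using h.five 1 (one_mem _)
  set H := closure ({a, b} : Set X) with hH
  have haH : a ∈ H := subset_closure (by simp)
  have hbH : b ∈ H := subset_closure (by simp)
  obtain ⟨hHf, hHc⟩ := H24.card_le_235' (G := H) (x := ⟨b⁻¹, inv_mem hbH⟩)
    (y := ⟨b * a, mul_mem hbH haH⟩) (Subtype.ext (by simp [h3])) (Subtype.ext (by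
      change (b * a) ^ 5 = 1
      calc (b * a) ^ 5 = b * (a * b) ^ 5 * b⁻¹ := by simp only [pow_succ]; group
        _ = 1 := by rw [h5]; group)) (Subtype.ext (by simp [pow_two, ha])) (by
      rw [eq_top_iff, ← closure_closure_coe_preimage, closure_le]
      have m1 : (⟨b⁻¹, inv_mem hbH⟩ : H) ∈ closure ({⟨b⁻¹, inv_mem hbH⟩,
          ⟨b * a, mul_mem hbH haH⟩} : Set H) := subset_closure (Or.inl rfl)
      have m2 : (⟨b * a, mul_mem hbH haH⟩ : H) ∈ closure ({⟨b⁻¹, inv_mem hbH⟩,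
          ⟨b * a, mul_mem hbH haH⟩} : Set H) := subset_closure (Or.inr rfl)
      rintro x (hx | hx)
      · have e : x = ⟨b⁻¹, inv_mem hbH⟩ * ⟨b * a, mul_mem hbH haH⟩ :=
          Subtype.ext (by simp [show (x : X) = a from hx])
        exact e ▸ mul_mem m1 m2
      · have e : x = ⟨b⁻¹, inv_mem hbH⟩⁻¹ := Subtype.ext (by simp [show (x : X) = b from hx])
        exact e ▸ inv_mem m1)
  have hHW : H ≤ normalizer (W : Set X) := by
    rw [hH, closure_le]
    rintro x (rfl | rfl)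
    · exact mem_normalizer_fintype fun w hw => (hn w hw).1
    · exact mem_normalizer_fintype fun w hw => (hn w hw).2
  have hle : closure ({a, b, v} : Set X) ≤ H ⊔ W := by
    rw [closure_le]
    rintro x (rfl | rfl | rfl)
    exacts [mem_sup_left haH, mem_sup_left hbH, mem_sup_right hvW]
  have hs : Function.Surjective fun p : H × W =>
      (⟨p.1 * p.2, mul_mem (mem_sup_left p.1.2) (mem_sup_right p.2.2)⟩ : (H ⊔ W : Subgroup X)) := by
    rintro ⟨x, hx⟩
    obtain ⟨y, hy, z, hz, rfl⟩ := (mem_sup_of_le_normalizer hHW).1 hx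
    exact ⟨(⟨y, hy⟩, ⟨z, hz⟩), rfl⟩
  haveI : Finite (H ⊔ W : Subgroup X) := Finite.of_surjective _ hs
  refine ⟨finite_of_le hle, (card_le_of_le hle).trans
    ((Nat.card_le_card_of_surjective _ hs).trans ?_)⟩
  rw [Nat.card_prod]
  exact Nat.mul_le_mul hHc hW

end NatAct

section Model

open H29 H29.F4
open scoped MatrixGroups

/-- The affine group `4² : SL₂(4)`. -/
abbrev Aff4 : Subgroup SL(3, F4) := Subgroup.closure {M : SL(3, F4) |
  (M : Matrix (Fin 3) (Fin 3) F4) 2 0 = 0 ∧ (M : Matrix (Fin 3) (Fin 3) F4) 2 1 = 0 ∧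
    (M : Matrix (Fin 3) (Fin 3) F4) 2 2 = 1}

/-- Translations. -/
def trM (x y : F4) : SL(3, F4) := ⟨!![1, 0, x; 0, 1, y; 0, 0, 1], by simp [Matrix.det_fin_three]⟩

/-- The involution. -/
def aM : SL(3, F4) := ⟨!![1, w, 0; 0, 1, 0; 0, 0, 1], by simp [Matrix.det_fin_three]⟩

/-- The element of order three. -/
def bM : SL(3, F4) := ⟨!![0, 1, 0; 1, 1, 0; 0, 0, 1], by rw [Matrix.det_fin_three]; decide⟩

private theorem t1 : ∀ x y x' y' : F4, trM x y * trM x' y' = trM (x + x') (y + y') := by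
  decide +kernel

private theorem t2 : trM 0 0 = 1 := by decide +kernel

private theorem t3 : ∀ x y : F4, aM * trM x y = trM (x + w * y) y * aM ∧
    bM * trM x y = trM y (x + y) * bM ∧ (trM x y * bM) ^ 3 = 1 ∧
    (trM x y * (aM * bM)) ^ 5 = 1 ∧ trM x y * trM x y = 1 := by
  decide +kernel

private theorem t4 : aM * aM = 1 ∧ aM * trM 1 0 = trM 1 0 * aM ∧ trM 1 0 ≠ 1 := by decide +kernel

/-- The translation group. -/
def trV : Subgroup SL(3, F4) where
  carrier := {M | ∃ x y, M = trM x y}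
  one_mem' := ⟨0, 0, t2.symm⟩
  mul_mem' := by
    rintro _ _ ⟨x, y, rfl⟩ ⟨x', y', rfl⟩
    exact ⟨_, _, t1 x y x' y'⟩
  inv_mem' := by
    rintro _ ⟨x, y, rfl⟩
    exact ⟨x, y, inv_eq_of_mul_eq_one_right (t3 x y).2.2.2.2⟩

theorem natAct_model : NatAct trV aM bM where
  ea := by rintro _ ⟨x, y, rfl⟩; exact (t3 x y).2.2.2.2
  na := mem_normalizer_fintype (by
    rintro _ ⟨x, y, rfl⟩
    exact ⟨_, _, by rw [(t3 x y).1, mul_inv_cancel_right]⟩)
  nb := mem_normalizer_fintype (by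
    rintro _ ⟨x, y, rfl⟩
    exact ⟨_, _, by rw [(t3 x y).2.1, mul_inv_cancel_right]⟩)
  aa := t4.1 ▸ one_mem _
  three := by rintro _ ⟨x, y, rfl⟩; exact (t3 x y).2.2.1
  five := by rintro _ ⟨x, y, rfl⟩; exact (t3 x y).2.2.2.1

theorem row_of_mem_aff4 {M : SL(3, F4)} (h : M ∈ Aff4) :
    (M : Matrix (Fin 3) (Fin 3) F4) 2 0 = 0 ∧ (M : Matrix (Fin 3) (Fin 3) F4) 2 1 = 0 ∧
      (M : Matrix (Fin 3) (Fin 3) F4) 2 2 = 1 := by
  have hmul : ∀ A B : SL(3, F4), A.1 2 0 = 0 ∧ A.1 2 1 = 0 ∧ A.1 2 2 = 1 →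
      B.1 2 0 = 0 ∧ B.1 2 1 = 0 ∧ B.1 2 2 = 1 →
      (A * B).1 2 0 = 0 ∧ (A * B).1 2 1 = 0 ∧ (A * B).1 2 2 = 1 := by
    rintro A B ⟨a1, a2, a3⟩ ⟨b1, b2, b3⟩
    simp [Matrix.mul_apply, Fin.sum_univ_three, a1, a2, a3, b1, b2, b3]
  let K : Submonoid SL(3, F4) :=
    { carrier := {M | M.1 2 0 = 0 ∧ M.1 2 1 = 0 ∧ M.1 2 2 = 1}
      one_mem' := by simp
      mul_mem' := fun {A B} => hmul A B }
  have : Aff4.toSubmonoid ≤ K := by
    rw [Aff4, closure_toSubmonoid_of_finite, Submonoid.closure_le]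
    exact fun _ h => h
  exact this h

private theorem card_par : Fintype.card {p : (F4 × F4 × F4 × F4) × F4 × F4 //
    p.1.1 * p.1.2.2.2 - p.1.2.1 * p.1.2.2.1 = 1} = 960 := by
  decide +kernel

theorem card_aff4_le : Nat.card Aff4 ≤ 960 := by
  rw [← card_par, ← Nat.card_eq_fintype_card]
  refine Nat.card_le_card_of_injective (fun M : Aff4 =>
    (⟨((M.1.1 0 0, M.1.1 0 1, M.1.1 1 0, M.1.1 1 1), M.1.1 0 2, M.1.1 1 2), by
      obtain ⟨h1, h2, h3⟩ := row_of_mem_aff4 M.2
      have := M.1.2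
      rw [Matrix.det_fin_three, h1, h2, h3] at this
      simpa using this⟩ : {p : (F4 × F4 × F4 × F4) × F4 × F4 //
        p.1.1 * p.1.2.2.2 - p.1.2.1 * p.1.2.2.1 = 1})) fun M N h => ?_
  obtain ⟨h1, h2, h3⟩ := row_of_mem_aff4 M.2
  obtain ⟨h4, h5, h6⟩ := row_of_mem_aff4 N.2
  simp only [Subtype.mk.injEq, Prod.mk.injEq] at h
  obtain ⟨⟨a, b, c, d⟩, e, f⟩ := h
  refine Subtype.ext (Subtype.ext (Matrix.ext fun i j => ?_))
  fin_cases i <;> fin_cases j <;> simp_all

/-- Recognition of the affine group. -/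
theorem iso_aff4 {G : Type*} [Group G] [Finite G] {V : Subgroup G} {a b v : G} (h : NatAct V a b)
    (ha : a * a = 1) (hv : v ∈ V) (hc : a * v = v * a) (hgen : closure ({a, b, v} : Set G) = ⊤)
    (hcard : 960 ≤ Nat.card G) (hker : ∀ K : Subgroup G, K.Normal → K ≠ ⊥ → v ∈ K) :
    Nonempty (G ≃* Aff4) := by
  obtain ⟨h1, h2⟩ := (h.prod natAct_model).card_le (Prod.ext ha t4.1) (v := (v, trM 1 0))
    ⟨hv, 1, 0, rfl⟩ (Prod.ext hc t4.2.1)
  obtain ⟨φ, hφ⟩ := H24.exists_hom_of_graph _ (H24.exists_snd_of_closure _ (by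
    simpa [Set.image_insert_eq] using hgen)) ⟨h1, h2.trans hcard⟩
  have e1 : φ a = aM := hφ _ _ (subset_closure (by simp))
  have e2 : φ b = bM := hφ _ _ (subset_closure (by simp))
  have e3 : φ v = trM 1 0 := hφ _ _ (subset_closure (by simp))
  have hr : ∀ g, φ g ∈ Aff4 := fun g => by
    have : closure ({a, b, v} : Set G) ≤ Aff4.comap φ := by
      rw [closure_le]
      rintro x (rfl | rfl | rfl)
      · exact mem_comap.2 (e1 ▸ subset_closure ⟨rfl, rfl, rfl⟩)
      · exact mem_comap.2 (e2 ▸ subset_closure ⟨rfl, rfl, rfl⟩)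
      · exact mem_comap.2 (e3 ▸ subset_closure ⟨rfl, rfl, rfl⟩)
    exact this (hgen ▸ mem_top g)
  have hinj : Function.Injective φ := by
    rw [← MonoidHom.ker_eq_bot_iff]
    by_contra hn
    exact t4.2.2 (e3.symm.trans (hker _ inferInstance hn))
  have hinj' : Function.Injective (φ.codRestrict Aff4 hr) := fun x y e =>
    hinj (congrArg Subtype.val e)
  refine ⟨MulEquiv.ofBijective (φ.codRestrict Aff4 hr) ?_⟩
  rw [Nat.bijective_iff_injective_and_card]
  exact ⟨hinj', le_antisymm (Nat.card_le_card_of_injective _ hinj') (card_aff4_le.trans hcard)⟩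

end Model

end Cfsg.Agent.H52
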