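import Cfsg.Agent.H52.Fi24G

/-! The normaliser of a subgroup of order 13 in a group of type M(24). -/

set_option autoImplicit false

namespace Cfsg.Agent.H52.Fi

open Cfsg.Agent.H58 Cfsg.Agent.H95 Cfsg.Agent.H96 Subgroup

variable {G : Type*} [Group G] {D : Set G}

/-- subgroups of order 13 of `G2(3)` -/
theorem g2_thirteen {K B : Subgroup G} (e : K ≃* H56.G23.K) (h1 : B ≤ K) (hB : Nat.card B = 13) :
    Nat.card ↥(K ⊓ normalizer (B : Set G)) = 78 ∧ K ⊓ centralizer (B : Set G) = B := by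
  have : Fact (Nat.Prime 13) := ⟨by norm_num⟩
  have hK : Nat.card K = 13 ^ 1 * 326592 := (Nat.card_congr e.toEquiv).trans H56.G23.card
  have : Finite K := Nat.finite_of_card_ne_zero (by rw [hK]; norm_num)
  have hB' : Nat.card (B.subgroupOf K) = 13 :=
    (Nat.card_congr (subgroupOfEquivOfLe h1).toEquiv).trans hB
  obtain ⟨d, d1, d2, d3⟩ := H56.G23.ord13
  have d4 : ∀ g : K, 13 ∣ orderOf g → orderOf g = 13 := fun g hg =>
    le_antisymm ((Nat.le_of_dvd d2 (e.orderOf_eq g ▸ d3 _ ((e.orderOf_eq g).symm ▸ hg))).trans d1)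
      (Nat.le_of_dvd (orderOf_pos g) hg)
  obtain ⟨x, hx⟩ := exists_prime_orderOf_dvd_card' (G := B.subgroupOf K) 13 hB'.symm.dvd
  rw [← orderOf_coe] at hx
  have h2 : IsPGroup 13 (centralizer (B.subgroupOf K : Set K)) := fun g => ⟨1, Subtype.ext (by
    show g.1 ^ 13 ^ 1 = 1
    by_cases h3 : 13 ∣ orderOf g.1
    · rw [pow_one, ← d4 _ h3, pow_orderOf_eq_one]
    · have h4 := Commute.orderOf_mul_eq_mul_orderOf_of_coprime (g.2 x x.2)
        (hx.symm ▸ (Nat.Prime.coprime_iff_not_dvd Fact.out).2 h3)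
      rw [hx] at h4
      have h5 := d4 _ (Dvd.intro _ h4.symm)
      rw [orderOf_eq_one_iff.1 (show orderOf g.1 = 1 by omega), one_pow])⟩
  obtain ⟨k, hk⟩ := IsPGroup.iff_card.1 h2
  have h3 : Nat.card (centralizer (B.subgroupOf K : Set K)) = 13 := by
    have h4 := card_subgroup_dvd_card (centralizer (B.subgroupOf K : Set K))
    have h5 := dvd_card_cent Fact.out hB'
    rw [hk] at h4 h5 ⊢
    rcases k with _ | _ | k
    · exact absurd h5 (by decide)
    · rfl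
    · exact absurd ((pow_dvd_pow 13 (show 2 ≤ k + 1 + 1 by omega)).trans (hK ▸ h4)) (by decide)
  obtain ⟨n, n1, n2⟩ := exists_sylow_count hK (by decide) hB'
  obtain ⟨k, k1, k2⟩ := exists_card_normalizer (B.subgroupOf K)
  rw [card_mulAut_prime Fact.out hB'] at k1
  rw [k2, h3, hK] at n2
  have k3 := Nat.le_of_dvd (by norm_num) k1
  have k4 : k = 6 := by interval_cases k <;> omega
  rw [h3, k4, ← subgroupOf_normalizer_eq h1, ← inf_subgroupOf_right,
    Nat.card_congr (subgroupOfEquivOfLe inf_le_right).toEquiv, inf_comm] at k2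
  have h4 := cent_eq_of_card Fact.out hB' h3
  refine ⟨k2, le_antisymm (fun g hg => ?_) fun g hg => ⟨h1 hg, fun y hy => ?_⟩⟩
  · exact (h4.le (show ⟨g, hg.1⟩ ∈ centralizer _ from fun y hy => Subtype.ext (hg.2 y hy)) :)
  · exact congrArg Subtype.val (h4.ge (show ⟨g, h1 hg⟩ ∈ B.subgroupOf K from hg) ⟨y, h1 hy⟩ hy)

/-- the three reflections of a symmetric group of degree three -/
def Tr (a d : G) : Set G := {a, d, cj a d}

theorem Tr.mem {a d : G} {Y : Subgroup G} (h1 : a ∈ Y) (h2 : d ∈ Y) : Tr a d ⊆ Y := by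
  rintro _ (rfl | rfl | rfl)
  exacts [h1, h2, cj_mem h1 h2]

theorem Tr.commute {a d g : G} (h1 : Commute g a) (h2 : Commute g d) : ∀ x ∈ Tr a d, Commute g x :=
  fun _ hx => (mem_cent.1 (Tr.mem (mem_cent.2 h1.symm) (mem_cent.2 h2.symm) hx)).symm

section

variable (hD : IsThreeTranspositionSet D) {a d : G} (ha : a ∈ D) (hd : d ∈ D) (h : ¬ Commute a d)
include h

theorem Tr.two : ({d, cj a d} : Set G).ncard = 2 :=
  Set.ncard_pair fun e => h (cj_eq_self_iff.1 e.symm)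

theorem Tr.orb2 {Y : Subgroup G} {R : Set G} (hR : ∀ x ∈ R, Commute a x)
    (h1 : Orb Y d ⊆ Tr a d ∪ R) (h2 : Y ≤ centralizer {a}) (h3 : a ∈ Y) : (Orb Y d).ncard = 2 := by
  rw [← Tr.two h]
  congr 1
  refine Set.Subset.antisymm (fun x hx => ?_) ?_
  · have h4 : ¬ Commute a x := by
      obtain ⟨g, hg, rfl⟩ := hx
      rwa [commute_cj_iff_of (mem_cent.1 (h2 hg)).symm]
    exact (((h1 hx).resolve_right fun e => h4 (hR x e)).resolve_left fun e =>
      h4 (e ▸ Commute.refl _) :)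
  · rintro _ (rfl | rfl)
    exacts [⟨1, one_mem _, cj_one _⟩, ⟨a, h3, rfl⟩]

include hD ha

theorem Tr.three : (Tr a d).ncard = 3 := by
  rw [Tr, Set.ncard_insert_of_notMem, Tr.two h]
  rintro (e | e)
  exacts [h (e ▸ Commute.refl _), TT.not_commute_cj_left hD ha h (e ▸ Commute.refl _)]

theorem Tr.nc {x : G} (hx : x ∈ Tr a d) (h1 : Commute a x) (h2 : Commute d x) : False := by
  rcases hx with rfl | rfl | rfl
  exacts [h h2.symm, h h1, TT.not_commute_cj_left hD ha h h1]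

include hd

theorem Tr.orb3 {Y : Subgroup G} (h1 : Orb Y a ⊆ Tr a d) (h2 : a ∈ Y) (h3 : d ∈ Y) :
    (Orb Y a).ncard = 3 := by
  rw [← Tr.three hD ha h]
  congr 1
  refine h1.antisymm ?_
  rintro _ (rfl | rfl | rfl)
  exacts [⟨1, one_mem _, cj_one _⟩, ⟨_, cj_mem h2 h3, TT.cj_cj_left hD ha hd h⟩,
    ⟨_, h3, (TT.cj_swap hD ha hd h).symm⟩]

theorem Tr.norm [Finite G] : a ∈ normalizer (Tr a d) ∧ d ∈ normalizer (Tr a d) := by
  constructor <;> refine H51.Fi.mem_norm_of ?_ <;> rintro _ (rfl | rfl | rfl)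
  exacts [Or.inl (cj_self _), Or.inr (Or.inr rfl), Or.inr (Or.inl (TT.cj_cj_self hD ha _)),
    Or.inr (Or.inr (TT.cj_swap hD ha hd h).symm), Or.inr (Or.inl (cj_self _)),
    Or.inl (by rw [TT.cj_swap hD ha hd h, TT.cj_cj_self hD hd])]

end

theorem Is24.norm13 {T : LModel G D} (h : Is24 T) {a b c d : G} (hm : ∀ x ∈ [a, b, c, d], x ∈ D)
    (h1 : ¬ Commute a d) (h2 : ¬ Commute b c) (h3 : Commute a b) (h4 : Commute a c)
    (h5 : Commute d b) (h6 : Commute d c) {S K B : Subgroup G} (hS : S = closure {a, b, c, d})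
    (hK : K = centralizer (S : Set G)) (h7 : B ≤ K) (hB : Nat.card B = 13)
    (h8 : Nat.card ↥(K ⊓ normalizer (B : Set G)) = 78) :
    normalizer (B : Set G) ≤ normalizer (K : Set G) ∧
      (((K ⊓ normalizer (B : Set G)) ⊔ S).subgroupOf (normalizer (B : Set G))).index = 2 := by
  have := h.m.finite
  have : Fact (Nat.Prime 13) := ⟨by norm_num⟩
  have hD := T.tt
  have hc := h.lev.cjm
  simp only [List.forall_mem_cons] at hm
  obtain ⟨ha, hb, hc', hd, -⟩ := hm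
  have s : ∀ x ∈ ({a, b, c, d} : Set G), x ∈ S := fun x hx => hS ▸ subset_closure hx
  have sa := s a (by simp)
  have sb := s b (by simp)
  have sc := s c (by simp)
  have sd := s d (by simp)
  have sB : S ≤ centralizer (B : Set G) := le_centralizer_iff.1 (hK ▸ h7)
  have sN := sB.trans (centralizer_le_normalizer _)
  have mK : ∀ g, g ∈ K ↔ Commute g a ∧ Commute g b ∧ Commute g c ∧ Commute g d := fun g => by
    rw [hK, hS, centralizer_closure]
    simp only [mem_centralizer_iff, Set.mem_insert_iff, Set.mem_singleton_iff, forall_eq_or_imp,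
      forall_eq]
    exact ⟨fun h => ⟨h.1.symm, h.2.1.symm, h.2.2.1.symm, h.2.2.2.symm⟩,
      fun h => ⟨h.1.symm, h.2.1.symm, h.2.2.1.symm, h.2.2.2.symm⟩⟩
  have ca := Tr.commute h3 h4
  have cd := Tr.commute h5 h6
  have cb := Tr.commute h3.symm h5.symm
  have cc := Tr.commute h4.symm h6.symm
  have hF : Tr a d ∪ Tr b c = D ∩ (centralizer (B : Set G) : Set G) := by
    refine Set.eq_of_subset_of_ncard_le (Set.subset_inter ?_
      (Set.union_subset (Tr.mem (sB sa) (sB sd)) (Tr.mem (sB sb) (sB sc)))) ?_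
    · rintro _ ((rfl | rfl | rfl) | rfl | rfl | rfl)
      exacts [ha, hd, hc _ _ hd, hb, hc', hc _ _ hc']
    · rw [Set.ncard_union_eq (Set.disjoint_left.2 fun x a1 a2 =>
        Tr.nc hD ha h1 a1 (ca x a2) (cd x a2)), Tr.three hD ha h1, Tr.three hD hb h2]
      exact h.fix13 hB
  have hO : ∀ Y ≤ normalizer (B : Set G), ∀ x ∈ Tr a d ∪ Tr b c, Orb Y x ⊆ Tr a d ∪ Tr b c :=
    fun Y hY x hx => hF ▸ orb_subset_fix hc hY (hF ▸ hx)
  have key : ∀ X, K ⊓ normalizer (B : Set G) ⊔ S ≤ X → X ≤ normalizer (B : Set G) →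
      Nat.card X = (Orb X a).ncard * 936 := fun X a1 a2 => by
    have a3 := le_sup_right.trans a1
    have b1 : X ⊓ centralizer {a} ⊓ centralizer {d} ⊓ centralizer {b} ⊓ centralizer {c} =
        K ⊓ normalizer (B : Set G) := by
      ext g
      simp only [mem_inf, mem_cent]
      refine ⟨fun e => ⟨(mK g).2 ⟨e.1.1.1.2, e.1.2, e.2, e.1.1.2⟩, a2 e.1.1.1.1⟩, fun e => ?_⟩
      have := (mK g).1 e.1
      exact ⟨⟨⟨⟨a1 (mem_sup_left e), this.1⟩, this.2.2.2⟩, this.2.1⟩, this.2.2.1⟩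
    rw [card_eq_orb X a, card_eq_orb (X ⊓ _) d, card_eq_orb (X ⊓ _ ⊓ _) b,
      card_eq_orb (X ⊓ _ ⊓ _ ⊓ _) c, b1, h8,
      Tr.orb2 h1 ca (hO _ (inf_le_left.trans a2) d (by simp [Tr])) inf_le_right
        ⟨a3 sa, mem_cent.2 (Commute.refl _)⟩,
      Tr.orb3 hD hb hc' h2 (Y := X ⊓ _ ⊓ _) (fun x hx => ?_) ⟨⟨a3 sb, mem_cent.2 h3.symm⟩, mem_cent.2 h5.symm⟩
        ⟨⟨a3 sc, mem_cent.2 h4.symm⟩, mem_cent.2 h6.symm⟩,
      Tr.orb2 h2 cb (Y := X ⊓ _ ⊓ _ ⊓ _) (Set.union_comm _ _ ▸ hO _ (inf_le_left.trans (inf_le_left.trans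
        (inf_le_left.trans a2))) c (by simp [Tr])) inf_le_right
        ⟨⟨⟨a3 sb, mem_cent.2 h3.symm⟩, mem_cent.2 h5.symm⟩, mem_cent.2 (Commute.refl _)⟩]
    refine (hO _ (inf_le_left.trans (inf_le_left.trans a2)) b (by simp [Tr]) hx).resolve_left
      fun e => ?_
    obtain ⟨g, hg, rfl⟩ := hx
    exact Tr.nc hD ha h1 e (commute_cj_of (mem_cent.1 hg.1.2).symm h3)
      (commute_cj_of (mem_cent.1 hg.2).symm h5)
  have a0 : K ⊓ normalizer (B : Set G) ⊔ S ≤ normalizer (B : Set G) := sup_le inf_le_right sN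
  refine ⟨fun g hg => mem_normalizer_of_cj fun k hk => ?_, ?_⟩
  · have a1 : ∀ x ∈ Tr a d ∪ Tr b c, Commute (cj g k) x := fun x hx => by
      rw [commute_cj_left]
      have := (mK k).1 hk
      exact (hO _ le_rfl x hx ⟨_, inv_mem hg, rfl⟩).elim (Tr.commute this.1 this.2.2.2 _)
        (Tr.commute this.2.1 this.2.2.1 _)
    exact (mK _).2 ⟨a1 _ (by simp [Tr]), a1 _ (by simp [Tr]), a1 _ (by simp [Tr]), a1 _ (by simp [Tr])⟩
  have a1 : ∀ g, Commute g a → Commute g d → g ∈ normalizer (Tr a d) := fun g b1 b2 =>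
    H51.Fi.mem_norm_of fun x hx => (cj_of_commute (Tr.commute b1 b2 x hx)).symm ▸ hx
  have a2 : K ⊓ normalizer (B : Set G) ⊔ S ≤ normalizer (Tr a d) := by
    refine sup_le (fun g hg => a1 g ((mK g).1 hg.1).1 ((mK g).1 hg.1).2.2.2)
      (hS ▸ (closure_le _).2 ?_)
    rintro _ (rfl | rfl | rfl | rfl)
    exacts [(Tr.norm hD ha hd h1).1, a1 _ h3.symm h5.symm, a1 _ h4.symm h6.symm,
      (Tr.norm hD ha hd h1).2]
  have a3 := key _ le_rfl a0
  rw [Tr.orb3 hD ha hd h1 (by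
    rintro _ ⟨g, hg, rfl⟩; exact H51.Fi.cj_mem_norm (a2 hg) (Or.inl rfl)) (mem_sup_right sa)
    (mem_sup_right sd)] at a3
  have a4 := key _ a0 le_rfl
  have a5 := (Set.ncard_le_ncard (hF ▸ hO _ le_rfl a (by simp [Tr]))).trans (h.fix13 hB)
  obtain ⟨n, n1, n2⟩ := exists_sylow_count (p := 13) (e := 1) (m := 193108570644717187891200)
    h.m.card (by decide) hB
  rw [a4, h.m.card] at n2
  have a6 : (Orb (normalizer (B : Set G)) a).ncard = 6 := by
    generalize (Orb (normalizer (B : Set G)) a).ncard = k at n2 a5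
    interval_cases k <;> omega
  have a7 := ((K ⊓ normalizer (B : Set G) ⊔ S).subgroupOf (normalizer (B : Set G))).card_mul_index
  rw [Nat.card_congr (subgroupOfEquivOfLe a0).toEquiv, a3, a4, a6] at a7
  omega

end Cfsg.Agent.H52.Fi
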